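import Cfsg.Agent.Lib.FrobThm.Basic
import Cfsg.Agent.Lib.Char.TI
import Cfsg.Agent.Lib.Char.Complete

/-!
# Frobenius-Wielandt: a normal complement from a T.I. difference set.

`K` is normal in `N ≤ G` and `N ∖ K` is T.I. with normalizer `N`. Then the elements of `G` that
are not conjugate into `N ∖ K` form a normal subgroup `T` with `|T| |N : K| = |G|`.
-/

set_option autoImplicit false
set_option linter.unusedSectionVars false

open scoped ComplexConjugate

namespace Cfsg.Agent.Lib.FrobWie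

open Cfsg (classInner IsCharacter IsIrrCharacter IrrCharacter IsClassFunction indFun
  extendByZero IsGeneralizedCharacter)
open Cfsg.Agent.Lib.Char
open Cfsg.Agent.Lib.FrobThm (phi phi_class classFn_sub phi_one phi_generalized exists_ker
  classInner_const_one)

universe u

variable {G : Type u} [Group G]

/-- `N ∖ K` as a subset of `G`. -/
def wSet (N : Subgroup G) (K : Subgroup N) : Set G := {g | ∃ h : g ∈ N, (⟨g, h⟩ : N) ∉ K}

theorem mem_wSet {N : Subgroup G} {K : Subgroup N} {g : G} :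
    g ∈ wSet N K ↔ ∃ h : g ∈ N, (⟨g, h⟩ : N) ∉ K := Iff.rfl

section Values

variable [Fintype G] {N : Subgroup G} [Fintype N] (K : Subgroup N)

theorem wSet_sub : wSet N K ⊆ N := fun _ h => h.1

theorem vanish {f : N → ℂ} (hf : ∀ k ∈ K, f k = 0) (x : N) (hx : (x : G) ∉ wSet N K) : f x = 0 := by
  apply hf
  by_contra h
  exact hx ⟨x.2, h⟩

theorem indFun_of_not_conj {f : N → ℂ} (hf : ∀ k ∈ K, f k = 0) {x : G}
    (hx : ∀ g : G, g⁻¹ * x * g ∉ wSet N K) : indFun N f x = 0 := by
  rw [indFun_apply]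
  have : ∀ g : G, extendByZero N f (g⁻¹ * x * g) = 0 := by
    intro g
    by_cases hm : g⁻¹ * x * g ∈ N
    · rw [extendByZero_of_mem N f hm]
      exact vanish K hf ⟨_, hm⟩ (hx g)
    · exact extendByZero_of_not_mem N f hm
  simp [this]

variable (hti : ∀ g : G, g ∉ N → ∀ s ∈ wSet N K, g * s * g⁻¹ ∉ wSet N K)

include hti in
theorem hti' : ∀ g : G, g ∉ N → ∀ s ∈ wSet N K, g * s * g⁻¹ ∈ wSet N K → s = 1 :=
  fun g hg s hs h => absurd h (hti g hg s hs)

include hti in
theorem phi_of_mem_wSet {θ : N → ℂ} (hθ : IsClassFunction N θ) (hK : ∀ k ∈ K, θ k = θ 1)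
    (x : N) (hx : (x : G) ∈ wSet N K) : phi N θ x = θ x := by
  have hx1 : x ≠ 1 := by
    rintro rfl
    obtain ⟨_, h⟩ := hx
    exact h K.one_mem
  simp only [phi, Pi.add_apply]
  rw [indFun_ti_apply N (wSet N K) (wSet_sub K) (hti' K hti) _ (classFn_sub hθ)
    (vanish K (by intro k hk; simp [hK k hk])) x hx hx1]
  simp

theorem phi_of_not_conj {θ : N → ℂ} (hK : ∀ k ∈ K, θ k = θ 1) {x : G}
    (hx : ∀ g : G, g⁻¹ * x * g ∉ wSet N K) : phi N θ x = θ 1 := by
  simp only [phi, Pi.add_apply]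
  rw [indFun_of_not_conj K (by intro k hk; simp [hK k hk]) hx]
  simp

include hti in
theorem phi_norm {θ : N → ℂ} (hθ : IsIrrCharacter N θ) (hne : θ ≠ fun _ => 1)
    (hK : ∀ k ∈ K, θ k = θ 1) : classInner (phi N θ) (phi N θ) = 1 := by
  have hθc : IsClassFunction N θ := IsCharacter.isClassFunction (IsIrrCharacter.isCharacter hθ)
  obtain ⟨n, hn⟩ := IsCharacter.map_one_eq (IsIrrCharacter.isCharacter hθ)
  have hconj : conj (θ 1) = θ 1 := by rw [hn]; simp
  have h0 : classInner θ (fun _ : N => (1 : ℂ)) = 0 :=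
    classInner_irr_of_ne hθ isIrrCharacter_one hne
  have h0' : classInner (fun _ : N => (1 : ℂ)) θ = 0 := by
    rw [← conj_classInner, h0]; simp
  have hconst1 : (fun _ : N => θ 1) = (θ 1) • (fun _ : N => (1 : ℂ)) := by
    funext h; simp
  have hconst2 : (fun _ : G => θ 1) = (θ 1) • (fun _ : G => (1 : ℂ)) := by
    funext h; simp
  have hone_class : IsClassFunction G (fun _ : G => (1 : ℂ)) := fun _ _ => rfl
  have hf : IsClassFunction N (θ - fun _ => θ 1) := classFn_sub hθc
  have hvan : ∀ x : N, (x : G) ∉ wSet N K → (θ - fun _ => θ 1 : N → ℂ) x = 0 :=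
    vanish K (by intro k hk; simp [hK k hk])
  have e1 : classInner (indFun N (θ - fun _ => θ 1)) (indFun N (θ - fun _ => θ 1))
      = 1 + θ 1 * θ 1 := by
    rw [classInner_indFun_ti N (wSet N K) (wSet_sub K) (hti' K hti) _ _ hf hf hvan hvan (by simp)]
    rw [classInner_sub_left, classInner_sub_right, classInner_sub_right, hconst1]
    simp only [classInner_smul_left, classInner_smul_right, h0, h0', classInner_irr_self hθ,
      classInner_const_one, hconj]
    ring
  have e2 : classInner (indFun N (θ - fun _ => θ 1)) (fun _ : G => (1 : ℂ)) = - θ 1 := by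
    rw [frobenius_reciprocity N _ _ hone_class, classInner_sub_left, h0, hconst1,
      classInner_smul_left, classInner_const_one]
    simp
  have e2' : classInner (fun _ : G => (1 : ℂ)) (indFun N (θ - fun _ => θ 1)) = - θ 1 := by
    rw [← conj_classInner, e2]; simp [hconj]
  unfold phi
  rw [hconst2, classInner_add_left, classInner_add_right, classInner_add_right, e1]
  simp only [classInner_smul_left, classInner_smul_right, e2, e2', classInner_const_one, hconj]
  ring

include hti in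
theorem phi_irr {θ : N → ℂ} (hθ : IsIrrCharacter N θ) (hne : θ ≠ fun _ => 1)
    (hK : ∀ k ∈ K, θ k = θ 1) : IsIrrCharacter G (phi N θ) := by
  refine isIrr_of_generalized_norm_one (phi_generalized (IsIrrCharacter.isCharacter hθ))
    (phi_norm K hti hθ hne hK) ?_
  rw [phi_one]
  obtain ⟨n, hn⟩ := IsCharacter.map_one_eq (IsIrrCharacter.isCharacter hθ)
  have hne0 := map_one_ne_zero_of_irr hθ
  rw [hn] at hne0 ⊢
  have : n ≠ 0 := by
    rintro rfl
    simp at hne0
  simp only [Complex.natCast_re]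
  exact_mod_cast Nat.pos_of_ne_zero this

theorem sum_ite_not_mem {X : Type*} [Group X] [Fintype X] (A : Subgroup X) [DecidablePred (· ∈ A)] :
    ∑ x : X, (if x ∈ A then (0 : ℂ) else 1) = (Nat.card X : ℂ) - Nat.card A := by
  have h1 : ∀ x : X, (if x ∈ A then (0 : ℂ) else 1) = 1 - (if x ∈ A then (1 : ℂ) else 0) := by
    intro x
    split_ifs <;> simp
  simp only [h1, Finset.sum_sub_distrib, Finset.sum_const, Finset.card_univ, nsmul_eq_mul, mul_one,
    Finset.sum_boole]
  rw [Nat.card_eq_fintype_card, Nat.card_eq_fintype_card, Fintype.card_subtype]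

include hti in
theorem card_mul_index [K.Normal] (T : Subgroup G)
    (hT : ∀ x, x ∉ T ↔ ∃ g, g⁻¹ * x * g ∈ wSet N K) : Nat.card T * K.index = Nat.card G := by
  classical
  let f : N → ℂ := fun n => if n ∈ K then 0 else 1
  have hfc : IsClassFunction N f := by
    intro g h
    have : h * g * h⁻¹ ∈ K ↔ g ∈ K := by
      constructor
      · intro hm
        have := (inferInstance : K.Normal).conj_mem _ hm h⁻¹
        simpa [mul_assoc] using this
      · intro hm
        exact (inferInstance : K.Normal).conj_mem _ hm h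
    simp only [f, this]
  have hf0 : ∀ k ∈ K, f k = 0 := fun k hk => by simp [f, hk]
  have hind : ∀ x : G, indFun N f x = if x ∈ T then 0 else 1 := by
    intro x
    by_cases hx : x ∈ T
    · rw [if_pos hx]
      refine indFun_of_not_conj K hf0 ?_
      intro g hg
      exact (hT x).mpr ⟨g, hg⟩ hx
    · rw [if_neg hx]
      obtain ⟨g, hg⟩ := (hT x).mp hx
      have h1 : indFun N f x = indFun N f (g⁻¹ * x * g) := by
        have := indFun_isClassFunction N f x g⁻¹
        simpa using this.symm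
      have hs1 : (⟨_, hg.1⟩ : N) ≠ 1 := by
        intro h
        apply hg.2
        rw [h]
        exact K.one_mem
      have h2 := indFun_ti_apply N (wSet N K) (wSet_sub K) (hti' K hti) f hfc
        (vanish K hf0) ⟨_, hg.1⟩ hg hs1
      rw [h1]
      simp only at h2
      rw [h2]
      simp only [f]
      rw [if_neg hg.2]
  have hone_class : IsClassFunction G (fun _ : G => (1 : ℂ)) := fun _ _ => rfl
  have hrec := frobenius_reciprocity N f _ hone_class
  rw [classInner_def, classInner_def] at hrec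
  simp only [hind, map_one, mul_one, f] at hrec
  rw [sum_ite_not_mem T, sum_ite_not_mem K] at hrec
  have hG : (Nat.card G : ℂ) ≠ 0 := by exact_mod_cast Nat.card_pos.ne'
  have hN : (Nat.card N : ℂ) ≠ 0 := by exact_mod_cast Nat.card_pos.ne'
  have hKc : (Nat.card K : ℂ) ≠ 0 := by exact_mod_cast Nat.card_pos.ne'
  have hcard : (Nat.card N : ℂ) = Nat.card K * K.index := by
    exact_mod_cast (Subgroup.card_mul_index K).symm
  have hi : (K.index : ℂ) ≠ 0 := by
    intro h
    rw [hcard, h, mul_zero] at hN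
    exact hN rfl
  have : (Nat.card T : ℂ) * K.index = Nat.card G := by
    rw [hcard] at hrec
    field_simp at hrec
    linear_combination (-1 : ℂ) * hrec
  exact_mod_cast this

end Values

/-- **Frobenius-Wielandt.** -/
theorem exists_wielandt [Finite G] (N : Subgroup G) (K : Subgroup N) [K.Normal]
    (hti : ∀ g : G, g ∉ N → ∀ s ∈ wSet N K, g * s * g⁻¹ ∉ wSet N K) :
    ∃ T : Subgroup G, T.Normal ∧ (∀ x, x ∉ T ↔ ∃ g, g⁻¹ * x * g ∈ wSet N K) ∧
      Nat.card T * K.index = Nat.card G := by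
  classical
  have : Fintype G := Fintype.ofFinite G
  have : Fintype N := Fintype.ofFinite N
  have : Fintype (N ⧸ K) := Fintype.ofFinite _
  let π : N →* N ⧸ K := QuotientGroup.mk' K
  have hπ : Function.Surjective π := QuotientGroup.mk'_surjective K
  have hlift : ∀ θ : IrrCharacter (N ⧸ K), IsIrrCharacter N ((θ : N ⧸ K → ℂ) ∘ π) := fun θ =>
    isIrr_comp_surjective π hπ θ.2
  have hK : ∀ (θ : IrrCharacter (N ⧸ K)), ∀ k ∈ K, ((θ : N ⧸ K → ℂ) ∘ π) k = ((θ : N ⧸ K → ℂ) ∘ π) 1 := by
    intro θ k hk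
    simp only [Function.comp_apply, map_one]
    rw [show π k = 1 from (QuotientGroup.eq_one_iff k).mpr hk]
  have hne : ∀ θ : {θ : IrrCharacter (N ⧸ K) // (θ : N ⧸ K → ℂ) ≠ fun _ => 1},
      ((θ.1 : N ⧸ K → ℂ) ∘ π) ≠ fun _ => 1 := by
    intro θ h
    apply θ.2
    funext q
    obtain ⟨n, rfl⟩ := hπ q
    exact congrFun h n
  have hex : ∀ θ : {θ : IrrCharacter (N ⧸ K) // (θ : N ⧸ K → ℂ) ≠ fun _ => 1},
      ∃ A : Subgroup G, A.Normal ∧ ∀ g, g ∈ A ↔
        phi N ((θ.1 : N ⧸ K → ℂ) ∘ π) g = phi N ((θ.1 : N ⧸ K → ℂ) ∘ π) 1 := fun θ =>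
    exists_ker (IsIrrCharacter.isCharacter (phi_irr K hti (hlift θ.1) (hne θ) (hK θ.1)))
  choose A hAn hA using hex
  let T : Subgroup G := ⨅ θ, A θ
  have hTmem : ∀ x : G, x ∈ T ↔ ∀ θ : {θ : IrrCharacter (N ⧸ K) // (θ : N ⧸ K → ℂ) ≠ fun _ => 1},
      phi N ((θ.1 : N ⧸ K → ℂ) ∘ π) x = phi N ((θ.1 : N ⧸ K → ℂ) ∘ π) 1 := by
    intro x
    simp only [T, Subgroup.mem_iInf, hA]
  have hTn : T.Normal := by
    refine ⟨fun n hn g => ?_⟩
    rw [Subgroup.mem_iInf] at hn ⊢
    intro θ
    exact (hAn θ).conj_mem n (hn θ) g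
  have hTc : ∀ x, x ∉ T ↔ ∃ g, g⁻¹ * x * g ∈ wSet N K := by
    intro x
    constructor
    · intro hx
      by_contra hcon
      push Not at hcon
      apply hx
      rw [hTmem]
      intro θ
      rw [phi_of_not_conj K (hK θ.1) hcon, phi_one]
    · rintro ⟨g, hg⟩ hx
      obtain ⟨hgN, hgK⟩ := hg
      apply hgK
      rw [hTmem] at hx
      have hall : ∀ χ : IrrCharacter (N ⧸ K), (χ : N ⧸ K → ℂ) (π ⟨_, hgN⟩) = (χ : N ⧸ K → ℂ) 1 := by
        intro χ
        by_cases hχ : (χ : N ⧸ K → ℂ) = fun _ => 1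
        · rw [hχ]
        · have h1 := hx ⟨χ, hχ⟩
          have hc := IsCharacter.isClassFunction (IsIrrCharacter.isCharacter (hlift χ))
          have h2 := phi_of_mem_wSet K hti hc (hK χ) ⟨_, hgN⟩ ⟨hgN, hgK⟩
          have h3 : phi N ((χ : N ⧸ K → ℂ) ∘ π) (g⁻¹ * x * g) = phi N ((χ : N ⧸ K → ℂ) ∘ π) x := by
            have := phi_class (H := N) ((χ : N ⧸ K → ℂ) ∘ π) x g⁻¹
            simpa using this
          simp only at h2
          rw [h3, h1, phi_one] at h2
          simpa using h2.symm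
      have hcj := (isConj_iff_forall_irr _ _).mpr hall
      have h1 := isConj_one_right.mp hcj.symm
      exact (QuotientGroup.eq_one_iff _).mp h1
  exact ⟨T, hTn, hTc, card_mul_index K hti T hTc⟩

end Cfsg.Agent.Lib.FrobWie
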