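import Cfsg.Agent.Lib.FrobWie.Basic
import Cfsg.Agent.Lib.Hall.Frobenius2
import Cfsg.Prelude.Def_Solvable

/-!
# T.I. Hall subgroups with a normal complement in their normalizer.
-/

set_option autoImplicit false
set_option linter.unusedSectionVars false

open scoped Pointwise

namespace Cfsg.Agent.Lib.FrobWie

open Subgroup

universe u

section Elem

variable {L : Type*} [Group L] [Finite L]

/-- A `p`-element is conjugate into a subgroup of index prime to `p`. -/
theorem exists_conj_mem_of_pElement (A : Subgroup L) {p : ℕ} [Fact p.Prime] (hp : ¬ p ∣ A.index)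
    {y : L} {k : ℕ} (hy : y ^ p ^ k = 1) : ∃ n : L, n⁻¹ * y * n ∈ A := by
  have hG : IsPGroup p (zpowers y) := by
    rintro ⟨g, m, rfl⟩
    refine ⟨k, ?_⟩
    apply Subtype.ext
    simp only [SubmonoidClass.coe_pow, OneMemClass.coe_one]
    change (y ^ m) ^ p ^ k = 1
    rw [← zpow_natCast, ← zpow_mul, mul_comm, zpow_mul, zpow_natCast, hy, one_zpow]
  obtain ⟨c, hc⟩ := hG.nonempty_fixed_point_of_prime_not_dvd_card (L ⧸ A) hp
  obtain ⟨n, rfl⟩ := QuotientGroup.mk_surjective c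
  refine ⟨n, ?_⟩
  have h1 := hc ⟨y, mem_zpowers y⟩
  have h2 : ((y * n : L) : L ⧸ A) = n := h1
  rw [QuotientGroup.eq] at h2
  have h3 := A.inv_mem h2
  simpa [mul_assoc] using h3

/-- An element outside a normal subgroup has a power of prime power order outside it. -/
theorem exists_pow_not_mem (K : Subgroup L) [K.Normal] {s : L} (hs : s ∉ K) :
    ∃ p m k : ℕ, p.Prime ∧ p ∣ K.index ∧ s ^ m ∉ K ∧ (s ^ m) ^ p ^ k = 1 := by
  have hq1 : ((s : L ⧸ K)) ≠ 1 := by
    rwa [Ne, QuotientGroup.eq_one_iff]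
  have hd1 : orderOf (s : L ⧸ K) ≠ 1 := by
    rwa [Ne, orderOf_eq_one_iff]
  have hp : ((orderOf (s : L ⧸ K)).minFac).Prime := Nat.minFac_prime hd1
  have hpd : (orderOf (s : L ⧸ K)).minFac ∣ orderOf (s : L ⧸ K) := Nat.minFac_dvd _
  have hpi : (orderOf (s : L ⧸ K)).minFac ∣ K.index := hpd.trans (orderOf_dvd_natCard _)
  obtain ⟨a, n', hn', hn⟩ := Nat.exists_eq_pow_mul_and_not_dvd (orderOf_pos s).ne'
    (orderOf (s : L ⧸ K)).minFac hp.ne_one
  refine ⟨_, n', a, hp, hpi, ?_, ?_⟩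
  · intro hm
    have h1 : ((s ^ n' : L) : L ⧸ K) = 1 := (QuotientGroup.eq_one_iff _).mpr hm
    have h2 : (s : L ⧸ K) ^ n' = 1 := by
      rw [← h1]
      rfl
    exact hn' (hpd.trans (orderOf_dvd_of_pow_eq_one h2))
  · rw [← pow_mul, mul_comm, ← hn, pow_orderOf_eq_one]

end Elem

section TI

variable {G : Type u} [Group G] [Finite G] {H N : Subgroup G}

theorem card_subgroupOf_of_le (hHN : H ≤ N) : Nat.card (H.subgroupOf N) = Nat.card H :=
  Nat.card_congr (subgroupOfEquivOfLe hHN).toEquiv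

/-- Elements of `N ∖ K` do not leave `N` under conjugation by elements outside `N`. -/
theorem strong_ti (hHN : H ≤ N) (hTI : ∀ g, g ∉ N → ∀ x ∈ H, g * x * g⁻¹ ∈ H → x = 1)
    (hHall : (Nat.card H).Coprime (H.subgroupOf N).index) (K : Subgroup N) [K.Normal]
    (hc : K.IsComplement' (H.subgroupOf N)) {g : G} (hg : g ∉ N) (s : N) (hs : s ∉ K) :
    g * s * g⁻¹ ∉ N := by
  intro hgs
  obtain ⟨p, m, k, hp, hpi, hm, hy⟩ := exists_pow_not_mem K hs
  haveI := Fact.mk hp
  have hpH : p ∣ Nat.card H := by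
    rw [← card_subgroupOf_of_le hHN, ← hc.symm.index_eq_card]
    exact hpi
  have hpnd : ¬ p ∣ (H.subgroupOf N).index := fun h =>
    hp.one_lt.ne' (Nat.eq_one_of_dvd_coprimes hHall hpH h)
  obtain ⟨n, hn⟩ := exists_conj_mem_of_pElement (H.subgroupOf N) hpnd hy
  have hzN : (⟨g * s * g⁻¹, hgs⟩ : N) ^ m ∈ (⊤ : Subgroup N) := mem_top _
  have hzval : (((⟨g * s * g⁻¹, hgs⟩ : N) ^ m : N) : G) = g * ((s ^ m : N) : G) * g⁻¹ := by
    simp only [SubmonoidClass.coe_pow]
    rw [conj_pow]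
  have hzp : ((⟨g * s * g⁻¹, hgs⟩ : N) ^ m) ^ p ^ k = 1 := by
    apply Subtype.ext
    rw [SubmonoidClass.coe_pow, hzval, conj_pow, ← SubmonoidClass.coe_pow, hy]
    simp
  obtain ⟨n', hn'⟩ := exists_conj_mem_of_pElement (H.subgroupOf N) hpnd hzp
  have h1 : (n : G)⁻¹ * ((s ^ m : N) : G) * n ∈ H := by
    have := mem_subgroupOf.mp hn
    simpa using this
  have h2 : (n' : G)⁻¹ * (g * ((s ^ m : N) : G) * g⁻¹) * n' ∈ H := by
    have := mem_subgroupOf.mp hn'
    rw [coe_mul, coe_mul, hzval] at this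
    simpa using this
  have hcN : (n' : G)⁻¹ * g * n ∉ N := by
    intro h
    apply hg
    have h3 : g = n' * ((n' : G)⁻¹ * g * n) * (n : G)⁻¹ := by group
    rw [h3]
    exact N.mul_mem (N.mul_mem n'.2 h) (N.inv_mem n.2)
  have h3 := hTI _ hcN _ h1 (by
    have h4 : (n' : G)⁻¹ * g * n * ((n : G)⁻¹ * ((s ^ m : N) : G) * n) * ((n' : G)⁻¹ * g * n)⁻¹ =
        (n' : G)⁻¹ * (g * ((s ^ m : N) : G) * g⁻¹) * n' := by group
    rw [h4]
    exact h2)
  apply hm
  have h5 : ((s ^ m : N) : G) = 1 := by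
    have h6 : ((s ^ m : N) : G) = n * ((n : G)⁻¹ * ((s ^ m : N) : G) * n) * (n : G)⁻¹ := by group
    rw [h6, h3]
    simp
  have h6 : s ^ m = 1 := Subtype.ext h5
  rw [h6]
  exact K.one_mem

/-- Existence of the normal complement, with its fusion properties. -/
theorem exists_T (hHN : H ≤ N) (hTI : ∀ g, g ∉ N → ∀ x ∈ H, g * x * g⁻¹ ∈ H → x = 1)
    (hHall : (Nat.card H).Coprime (H.subgroupOf N).index) (K : Subgroup N) [K.Normal]
    (hc : K.IsComplement' (H.subgroupOf N)) :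
    ∃ T : Subgroup G, T.Normal ∧ T.IsComplement' H ∧
      (∀ g, g ∉ N → ∀ s ∈ N, s ∉ T → g * s * g⁻¹ ∉ N) ∧ (∀ x, x ∉ T → ∃ g, g⁻¹ * x * g ∈ N) := by
  have hst := @strong_ti G _ _ H N hHN hTI hHall K _ hc
  have hti : ∀ g : G, g ∉ N → ∀ s ∈ wSet N K, g * s * g⁻¹ ∉ wSet N K := by
    intro g hg s hs h
    exact hst hg ⟨s, hs.1⟩ hs.2 h.1
  obtain ⟨T, hTn, hT, hcard⟩ := exists_wielandt N K hti
  have hKT : ∀ s : N, s ∈ K → (s : G) ∈ T := by
    intro s hs
    by_contra hcon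
    obtain ⟨g, hg⟩ := (hT s).mp hcon
    by_cases hgN : g ∈ N
    · apply hg.2
      have := (inferInstance : K.Normal).conj_mem s hs (⟨g, hgN⟩ : N)⁻¹
      convert this using 1
      apply Subtype.ext
      simp
    · apply hst hgN ⟨_, hg.1⟩ hg.2
      have h1 : g * (g⁻¹ * (s : G) * g) * g⁻¹ = s := by group
      simp only [h1]
      exact s.2
  refine ⟨T, hTn, ?_, ?_, ?_⟩
  · apply isComplement'_of_card_mul_and_disjoint
    · rw [← hcard, hc.symm.index_eq_card, card_subgroupOf_of_le hHN]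
    · rw [Subgroup.disjoint_def]
      intro x hxT hxH
      have hxK : (⟨x, hHN hxH⟩ : N) ∈ K := by
        by_contra hcon
        refine (hT x).mpr ⟨1, ?_⟩ hxT
        have : (1 : G)⁻¹ * x * 1 = x := by group
        rw [this]
        exact ⟨hHN hxH, hcon⟩
      have h1 := Subgroup.disjoint_def.mp hc.disjoint hxK (mem_subgroupOf.mpr hxH)
      exact congrArg Subtype.val h1
  · intro g hg s hsN hsT
    refine hst hg ⟨s, hsN⟩ ?_
    exact fun h => hsT (hKT _ h)
  · intro x hx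
    obtain ⟨g, hg⟩ := (hT x).mp hx
    exact ⟨g, hg.1⟩

/-- A normal complement restricts to a normal complement in any overgroup of `H`. -/
theorem complement_restrict (hHN : H ≤ N) (M : Subgroup G) [hM : M.Normal]
    (hc : M.IsComplement' H) :
    ∃ K : Subgroup N, K.Normal ∧ K.IsComplement' (H.subgroupOf N) := by
  refine ⟨M.subgroupOf N, inferInstance, ?_⟩
  apply isComplement'_of_disjoint_and_mul_eq_univ
  · rw [Subgroup.disjoint_def]
    intro x hx1 hx2
    have h1 := Subgroup.disjoint_def.mp hc.disjoint (mem_subgroupOf.mp hx1) (mem_subgroupOf.mp hx2)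
    exact Subtype.ext h1
  · ext n
    simp only [Set.mem_mul, Set.mem_univ, iff_true]
    obtain ⟨⟨m, h⟩, hmh⟩ := hc.2 n
    simp only at hmh
    have hmN : (m : G) ∈ N := by
      have h1 : (m : G) = n * (h : G)⁻¹ := by rw [← hmh]; group
      rw [h1]
      exact N.mul_mem n.2 (N.inv_mem (hHN h.2))
    refine ⟨⟨m, hmN⟩, mem_subgroupOf.mpr m.2, ⟨h, hHN h.2⟩, mem_subgroupOf.mpr h.2, ?_⟩
    apply Subtype.ext
    exact hmh

variable {T : Subgroup G}

theorem mem_fixedBy_mk {x g : G} :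
    (g : G ⧸ N) ∈ MulAction.fixedBy (G ⧸ N) x ↔ g⁻¹ * x * g ∈ N := by
  rw [MulAction.mem_fixedBy]
  have h1 : x • (g : G ⧸ N) = ((x * g : G) : G ⧸ N) := rfl
  rw [h1, eq_comm, QuotientGroup.eq, mul_assoc]

theorem card_fixedBy [hT : T.Normal] (hstr : ∀ g, g ∉ N → ∀ s ∈ N, s ∉ T → g * s * g⁻¹ ∉ N)
    (hU : ∀ x, x ∉ T → ∃ g, g⁻¹ * x * g ∈ N) {x : G} (hx : x ∉ T) :
    Nat.card (MulAction.fixedBy (G ⧸ N) x) = 1 := by
  obtain ⟨g₀, hg₀⟩ := hU x hx
  rw [Nat.card_eq_one_iff_unique]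
  refine ⟨⟨?_⟩, ⟨⟨(g₀ : G ⧸ N), mem_fixedBy_mk.mpr hg₀⟩⟩⟩
  rintro ⟨c₁, hc₁⟩ ⟨c₂, hc₂⟩
  apply Subtype.ext
  obtain ⟨g₁, rfl⟩ := QuotientGroup.mk_surjective c₁
  obtain ⟨g₂, rfl⟩ := QuotientGroup.mk_surjective c₂
  have h1 := mem_fixedBy_mk.mp hc₁
  have h2 := mem_fixedBy_mk.mp hc₂
  have h3 : g₂⁻¹ * x * g₂ ∉ T := by
    intro h
    apply hx
    have := hT.conj_mem _ h g₂
    simpa [mul_assoc] using this
  simp only
  rw [QuotientGroup.eq]
  by_contra hcon
  apply hstr _ hcon _ h2 h3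
  have h4 : g₁⁻¹ * g₂ * (g₂⁻¹ * x * g₂) * (g₁⁻¹ * g₂)⁻¹ = g₁⁻¹ * x * g₁ := by group
  rw [h4]
  exact h1

theorem coprime_index [hT : T.Normal] (hHT : ∀ x ∈ H, x ≠ 1 → x ∉ T)
    (hstr : ∀ g, g ∉ N → ∀ s ∈ N, s ∉ T → g * s * g⁻¹ ∉ N)
    (hU : ∀ x, x ∉ T → ∃ g, g⁻¹ * x * g ∈ N) : (Nat.card H).Coprime N.index := by
  by_contra hcon
  obtain ⟨p, hp, hpH, hpN⟩ := Nat.Prime.not_coprime_iff_dvd.mp hcon
  haveI := Fact.mk hp
  obtain ⟨y, hy⟩ := exists_prime_orderOf_dvd_card' (G := H) p hpH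
  have hy1 : (y : G) ≠ 1 := by
    intro h
    have : y = 1 := Subtype.ext h
    rw [this, orderOf_one] at hy
    exact hp.one_lt.ne hy
  have hyT := hHT y y.2 hy1
  have hyo : orderOf (y : G) = p := by
    rw [Subgroup.orderOf_coe, hy]
  have hG : IsPGroup p (zpowers (y : G)) := by
    rw [IsPGroup.iff_card]
    exact ⟨1, by rw [Nat.card_zpowers, hyo, pow_one]⟩
  have h1 := hG.card_modEq_card_fixedPoints (G ⧸ N)
  have hset : MulAction.fixedPoints (zpowers (y : G)) (G ⧸ N) =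
      MulAction.fixedBy (G ⧸ N) (y : G) := by
    ext c
    constructor
    · intro h
      exact h ⟨y, mem_zpowers _⟩
    · intro h a
      have h2 : zpowers (y : G) ≤ MulAction.stabilizer G c :=
        (Subgroup.zpowers_le).mpr h
      exact h2 a.2
  have h2 : Nat.card (MulAction.fixedPoints (zpowers (y : G)) (G ⧸ N)) = 1 := by
    rw [hset]
    exact card_fixedBy hstr hU hyT
  rw [h2] at h1
  have h3 : Nat.card (G ⧸ N) ≡ 0 [MOD p] := (Nat.modEq_zero_iff_dvd).mpr hpN
  have h4 := h3.symm.trans h1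
  have h5 := (Nat.modEq_zero_iff_dvd).mp h4.symm
  exact hp.one_lt.ne' (Nat.dvd_one.mp h5)

theorem coprime_card_T (hHN : H ≤ N) (hHall : (Nat.card H).Coprime (H.subgroupOf N).index)
    (hc : T.IsComplement' H) (hci : (Nat.card H).Coprime N.index) :
    (Nat.card T).Coprime (Nat.card H) := by
  rw [← hc.index_eq_card, ← relIndex_mul_index hHN]
  exact (Nat.Coprime.mul_right hHall hci).symm

theorem commute_of_mem [hT : T.Normal] (hHT : ∀ x ∈ H, x ≠ 1 → x ∉ T)
    (hnorm : ∀ n ∈ N, ∀ h ∈ H, n * h * n⁻¹ ∈ H) {t h : G} (ht : t ∈ T) (htN : t ∈ N) (hh : h ∈ H) :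
    t * h = h * t := by
  have h1 : t * h * t⁻¹ * h⁻¹ ∈ H := H.mul_mem (hnorm t htN h hh) (H.inv_mem hh)
  have h2 : t * h * t⁻¹ * h⁻¹ ∈ T := by
    have h3 : t * h * t⁻¹ * h⁻¹ = t * (h * t⁻¹ * h⁻¹) := by group
    rw [h3]
    exact T.mul_mem ht (hT.conj_mem _ (T.inv_mem ht) h)
  by_cases h4 : t * h * t⁻¹ * h⁻¹ = 1
  · have h5 : t * h = (t * h * t⁻¹ * h⁻¹) * (h * t) := by group
    rw [h5, h4, one_mul]
  · exact absurd h2 (hHT _ h1 h4)

theorem eq_of_le_of_card [hT : T.Normal] (hHN : H ≤ N) (hc : T.IsComplement' H)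
    (hHT : ∀ x ∈ H, x ≠ 1 → x ∉ T) (hnorm : ∀ n ∈ N, ∀ h ∈ H, n * h * n⁻¹ ∈ H)
    (hco : (Nat.card T).Coprime (Nat.card H)) {A : Subgroup G} (hAN : A ≤ N)
    (hA : Nat.card A = Nat.card H) : A = H := by
  have hle : A ≤ H := by
    intro x hx
    obtain ⟨⟨t, h⟩, hth⟩ := hc.2 x
    simp only at hth
    have htN : (t : G) ∈ N := by
      have h1 : (t : G) = x * (h : G)⁻¹ := by rw [← hth]; group
      rw [h1]
      exact N.mul_mem (hAN hx) (N.inv_mem (hHN h.2))
    have hcomm := commute_of_mem hHT hnorm t.2 htN h.2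
    have hx1 : x ^ Nat.card H = 1 := by
      have : (⟨x, hx⟩ : A) ^ Nat.card A = 1 := pow_card_eq_one'
      rw [hA] at this
      exact congrArg Subtype.val this
    have hh1 : (h : G) ^ Nat.card H = 1 := by
      have : h ^ Nat.card H = 1 := pow_card_eq_one'
      exact congrArg Subtype.val this
    have ht1 : (t : G) ^ Nat.card T = 1 := by
      have : t ^ Nat.card T = 1 := pow_card_eq_one'
      exact congrArg Subtype.val this
    have ht2 : (t : G) ^ Nat.card H = 1 := by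
      have h2 : Commute (t : G) (h : G) := hcomm
      rw [← hth, h2.mul_pow, hh1, mul_one] at hx1
      exact hx1
    have ht3 : (t : G) = 1 := by
      have h3 := Nat.Coprime.eq_one_of_dvd (Nat.Coprime.coprime_dvd_left (orderOf_dvd_of_pow_eq_one ht1) hco)
        (orderOf_dvd_of_pow_eq_one ht2)
      exact orderOf_eq_one_iff.mp h3
    rw [← hth, ht3, one_mul]
    exact h.2
  exact Subgroup.eq_of_le_of_card_ge hle hA.ge

/-- A complement of `T` is conjugate to `H`. -/
theorem exists_conj_complement [hT : T.Normal] (hHN : H ≤ N) (hc : T.IsComplement' H)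
    (hHT : ∀ x ∈ H, x ≠ 1 → x ∉ T) (hnorm : ∀ n ∈ N, ∀ h ∈ H, n * h * n⁻¹ ∈ H)
    (hstr : ∀ g, g ∉ N → ∀ s ∈ N, s ∉ T → g * s * g⁻¹ ∉ N)
    (hU : ∀ x, x ∉ T → ∃ g, g⁻¹ * x * g ∈ N)
    (hco : (Nat.card T).Coprime (Nat.card H)) (hHbot : H ≠ ⊥) {H₁ : Subgroup G}
    (hH₁ : H₁ ⊓ T = ⊥) (hcard : Nat.card H₁ = Nat.card H) :
    ∃ g : G, ∀ h ∈ H, g * h * g⁻¹ ∈ H₁ := by
  have hnt : Nontrivial H₁ := by
    rw [← Finite.one_lt_card_iff_nontrivial, hcard, Subgroup.one_lt_card_iff_ne_bot]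
    exact hHbot
  have hfix : ∀ a : H₁, a ≠ 1 → Nat.card (MulAction.fixedBy (G ⧸ N) a) = 1 := by
    intro a ha
    have h1 : (a : G) ∉ T := by
      intro h
      have h2 : (a : G) ∈ H₁ ⊓ T := ⟨a.2, h⟩
      rw [hH₁] at h2
      exact ha (Subtype.ext h2)
    exact card_fixedBy hstr hU h1
  obtain ⟨c, hc'⟩ := Cfsg.Agent.Lib.Hall.exists_global_fixed_point hfix
  obtain ⟨g, rfl⟩ := QuotientGroup.mk_surjective c
  have hmem : ∀ a ∈ H₁, g⁻¹ * a * g ∈ N := by
    intro a ha
    exact mem_fixedBy_mk.mp (hc' ⟨a, ha⟩)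
  let A : Subgroup G := H₁.map (MulAut.conj g⁻¹).toMonoidHom
  have hAN : A ≤ N := by
    rintro _ ⟨a, ha, rfl⟩
    have := hmem a ha
    simpa [mul_assoc] using this
  have hAc : Nat.card A = Nat.card H := by
    rw [← hcard]
    exact Subgroup.card_map_of_injective (MulAut.conj g⁻¹).injective
  have hAH := eq_of_le_of_card hHN hc hHT hnorm hco hAN hAc
  refine ⟨g, ?_⟩
  intro h hh
  rw [← hAH] at hh
  obtain ⟨a, ha, rfl⟩ := hh
  have : g * ((MulAut.conj g⁻¹).toMonoidHom a) * g⁻¹ = a := by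
    simp [mul_assoc]
  rw [this]
  exact ha

/-- Existence of an `H`-invariant subgroup of `T` of Sylow order. -/
theorem exists_invariant_p [hT : T.Normal] (hHN : H ≤ N) (hc : T.IsComplement' H)
    (hHT : ∀ x ∈ H, x ≠ 1 → x ∉ T) (hnorm : ∀ n ∈ N, ∀ h ∈ H, n * h * n⁻¹ ∈ H)
    (hstr : ∀ g, g ∉ N → ∀ s ∈ N, s ∉ T → g * s * g⁻¹ ∉ N)
    (hU : ∀ x, x ∉ T → ∃ g, g⁻¹ * x * g ∈ N)
    (hco : (Nat.card T).Coprime (Nat.card H)) (hHbot : H ≠ ⊥) (r : ℕ) [Fact r.Prime]
    (P : Sylow r T) :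
    ∃ R : Subgroup G, R ≤ T ∧ IsPGroup r R ∧ Nat.card R = Nat.card P ∧
      ∀ h ∈ H, ∀ x ∈ R, h * x * h⁻¹ ∈ R := by
  let R₁ : Subgroup G := (P : Subgroup T).map T.subtype
  have hfr : normalizer (R₁ : Set G) ⊔ T = ⊤ := Sylow.normalizer_sup_eq_top P
  let L : Subgroup G := normalizer (R₁ : Set G)
  let A : Subgroup L := T.subgroupOf L
  have hAi : A.index = Nat.card H := by
    change T.relIndex L = _
    rw [← relIndex_sup_right, hfr, relIndex_top_right, hc.symm.index_eq_card]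
  have hAc : Nat.card A ∣ Nat.card T := by
    have h1 : Nat.card A = Nat.card (T ⊓ L : Subgroup G) := by
      rw [← Subgroup.subgroupOf_map_subtype]
      exact (Subgroup.card_map_of_injective L.subtype_injective).symm
    rw [h1]
    exact Subgroup.card_dvd_of_le inf_le_left
  have hcop : (Nat.card A).Coprime A.index := by
    rw [hAi]
    exact Nat.Coprime.coprime_dvd_left hAc hco
  obtain ⟨H₂, hH₂⟩ := Subgroup.exists_right_complement'_of_coprime hcop
  let H₁ : Subgroup G := H₂.map L.subtype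
  have hH₁c : Nat.card H₁ = Nat.card H := by
    rw [← hAi, hH₂.symm.index_eq_card]
    exact Subgroup.card_map_of_injective L.subtype_injective
  have hH₁T : H₁ ⊓ T = ⊥ := by
    rw [eq_bot_iff]
    rintro x ⟨⟨y, hy, rfl⟩, hxT⟩
    have h1 : y ∈ A := mem_subgroupOf.mpr hxT
    have h2 := Subgroup.disjoint_def.mp hH₂.disjoint h1 hy
    rw [h2]
    simp
  obtain ⟨g, hg⟩ := exists_conj_complement hHN hc hHT hnorm hstr hU hco hHbot hH₁T hH₁c
  refine ⟨R₁.map (MulAut.conj g⁻¹).toMonoidHom, ?_, ?_, ?_, ?_⟩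
  · rintro _ ⟨x, hx, rfl⟩
    have hxT : x ∈ T := by
      obtain ⟨y, hy, rfl⟩ := hx
      exact y.2
    exact hT.conj_mem _ hxT _
  · have h1 : IsPGroup r R₁ := P.isPGroup'.map T.subtype
    exact h1.map _
  · rw [Subgroup.card_map_of_injective (MulAut.conj g⁻¹).injective]
    exact Subgroup.card_map_of_injective T.subtype_injective
  · rintro h hh _ ⟨x, hx, rfl⟩
    have h1 : g * h * g⁻¹ ∈ L := by
      obtain ⟨a, ha, hae⟩ := hg h hh
      rw [← hae]
      exact a.2
    have h2 := (mem_normalizer_iff.mp h1 x).mp hx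
    refine ⟨_, h2, ?_⟩
    simp only [MulEquiv.coe_toMonoidHom, MulAut.conj_apply]
    group

/-- A prime for which the Sylow order does not divide `|T ∩ N|`. -/
theorem exists_prime_sylow_not_le (hTN : ¬ T ≤ N) :
    ∃ r : ℕ, r.Prime ∧ ¬ r ^ Nat.factorization (Nat.card T) r ∣ Nat.card (T ⊓ N : Subgroup G) := by
  by_contra hcon
  push Not at hcon
  have h1 : Nat.card T ∣ Nat.card (T ⊓ N : Subgroup G) := by
    rw [← Nat.factorization_prime_le_iff_dvd Nat.card_pos.ne' Nat.card_pos.ne']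
    intro p hp
    exact (Nat.Prime.pow_dvd_iff_le_factorization hp Nat.card_pos.ne').mp (hcon p hp)
  have h2 : T ⊓ N = T :=
    Subgroup.eq_of_le_of_card_ge inf_le_left (Nat.le_of_dvd Nat.card_pos h1)
  exact hTN (inf_eq_left.mp h2)

/-- From the section `B / B₀` to a Frobenius group. -/
theorem frob_of_section (B : Subgroup G) (B₀ : Subgroup B) [hB₀ : B₀.Normal] (hne : B₀ ≠ ⊤)
    (hinv : ∀ h ∈ H, ∀ x ∈ B, h * x * h⁻¹ ∈ B)
    (hinv₀ : ∀ h ∈ H, ∀ x : B, x ∈ B₀ → ∀ hm, (⟨h * x * h⁻¹, hm⟩ : B) ∈ B₀)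
    (hHbot : H ≠ ⊥)
    (hfix : ∀ h ∈ H, h ≠ 1 → ∀ b : B, ∀ hm, (⟨h * b * h⁻¹, hm⟩ : B)⁻¹ * b ∈ B₀ → b ∈ B₀) :
    ∃ (F : Type u) (_ : Group F) (_ : Finite F) (C : Subgroup F),
      Cfsg.IsFrobeniusComplement C ∧ Nonempty (H ≃* C) := by
  have hHB : H ≤ normalizer (B : Set G) := by
    intro h hh
    rw [mem_normalizer_iff]
    intro x
    constructor
    · exact hinv h hh x
    · intro hx
      have := hinv h⁻¹ (H.inv_mem hh) _ hx
      simpa [mul_assoc] using this
  let c : H →* MulAut B := B.normalizerMonoidHom.comp (Subgroup.inclusion hHB)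
  have hcv : ∀ (h : H) (x : B), ((c h x : B) : G) = h * x * (h : G)⁻¹ := fun h x => rfl
  have hcm : ∀ (h : H) (x : B), x ∈ B₀ → c h x ∈ B₀ := by
    intro h x hx
    have := hinv₀ h h.2 x hx (by
      have := (c h x).2
      rwa [hcv] at this)
    convert this using 1
    exact Subtype.ext (hcv h x)
  have hmap : ∀ h : H, B₀ = B₀.map (c h).toMonoidHom := by
    intro h
    apply le_antisymm
    · intro x hx
      refine ⟨c h⁻¹ x, hcm _ _ hx, ?_⟩
      simp only [MulEquiv.coe_toMonoidHom]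
      rw [← MulAut.mul_apply, ← map_mul]
      simp
    · rintro _ ⟨x, hx, rfl⟩
      exact hcm h x hx
  let V := B ⧸ B₀
  let φ : H →* MulAut V := MonoidHom.mk' (fun h => QuotientGroup.congr B₀ B₀ (c h) (by exact (hmap h).symm)) (by
    intro a b
    ext q
    obtain ⟨x, rfl⟩ := QuotientGroup.mk_surjective q
    simp only [MulAut.mul_apply, QuotientGroup.congr_mk, map_mul]
    rfl)
  have hφ : ∀ (h : H) (x : B), φ h (x : V) = ((c h x : B) : V) := fun h x => rfl
  have hfpf : ∀ (h : H), h ≠ 1 → ∀ v : V, φ h v = v → v = 1 := by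
    intro h h1 v hv
    obtain ⟨b, rfl⟩ := QuotientGroup.mk_surjective v
    rw [hφ, QuotientGroup.eq] at hv
    have h2 : (h : G) ≠ 1 := fun h0 => h1 (Subtype.ext h0)
    have := hfix h h.2 h2 b (c h b).2 hv
    exact (QuotientGroup.eq_one_iff b).mpr this
  obtain ⟨v₀, hv₀⟩ : ∃ v : V, v ≠ 1 := by
    have hnt : ∃ b : B, b ∉ B₀ := by
      by_contra hcon
      push Not at hcon
      exact hne (eq_top_iff.mpr fun b _ => hcon b)
    obtain ⟨b, hb⟩ := hnt
    exact ⟨(b : V), fun h => hb ((QuotientGroup.eq_one_iff b).mp h)⟩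
  obtain ⟨h₀, hh₀⟩ : ∃ h : H, h ≠ 1 := by
    by_contra hcon
    push Not at hcon
    apply hHbot
    rw [eq_bot_iff]
    intro x hx
    exact congrArg Subtype.val (hcon ⟨x, hx⟩)
  have : Finite (V ⋊[φ] H) := Finite.of_equiv _ SemidirectProduct.equivProd.symm
  let C : Subgroup (V ⋊[φ] H) := (SemidirectProduct.inr : H →* V ⋊[φ] H).range
  refine ⟨V ⋊[φ] H, inferInstance, inferInstance, C, ⟨?_, ?_, ?_⟩,
    ⟨MonoidHom.ofInjective SemidirectProduct.inr_injective⟩⟩
  · intro hC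
    have h1 : (SemidirectProduct.inr h₀ : V ⋊[φ] H) ∈ C := ⟨h₀, rfl⟩
    rw [hC] at h1
    exact hh₀ (SemidirectProduct.inr_injective (by simpa using h1))
  · intro hC
    have h1 : (SemidirectProduct.inl v₀ : V ⋊[φ] H) ∈ C := by
      rw [hC]
      exact mem_top _
    obtain ⟨h, hh⟩ := h1
    have h2 := congrArg SemidirectProduct.rightHom hh
    simp only [SemidirectProduct.rightHom_inr, SemidirectProduct.rightHom_inl] at h2
    rw [h2, map_one] at hh
    exact hv₀ (SemidirectProduct.inl_injective (by simpa using hh.symm))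
  · intro g hg
    rw [eq_bot_iff]
    rintro x ⟨⟨h, rfl⟩, hx2⟩
    obtain ⟨h', hy⟩ := Cfsg.Agent.Lib.Core.mem_conj_smul_iff.mp hx2
    rw [Subgroup.mem_bot]
    have hgdec : SemidirectProduct.inl g.left * SemidirectProduct.inr g.right = g :=
      SemidirectProduct.inl_left_mul_inr_right g
    have hv1 : g.left ≠ 1 := by
      intro hv
      apply hg
      rw [← hgdec, hv, map_one, one_mul]
      exact ⟨_, rfl⟩
    have hr := congrArg SemidirectProduct.rightHom hy
    simp only [map_mul, map_inv, SemidirectProduct.rightHom_inr] at hr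
    have hrg : SemidirectProduct.rightHom g = g.right := rfl
    rw [hrg] at hr
    have hk : g.right * h' = h * g.right := by rw [hr]; group
    have h5 : (SemidirectProduct.inr g.right : V ⋊[φ] H) * SemidirectProduct.inr h' =
        SemidirectProduct.inr h * SemidirectProduct.inr g.right := by
      rw [← map_mul, hk, map_mul]
    have h4 : SemidirectProduct.inr h * g = g * SemidirectProduct.inr h' := by
      rw [hy]
      group
    have h6 : (SemidirectProduct.inr h * SemidirectProduct.inl g.left : V ⋊[φ] H) *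
        SemidirectProduct.inr g.right =
        SemidirectProduct.inl g.left * SemidirectProduct.inr h * SemidirectProduct.inr g.right := by
      calc _ = SemidirectProduct.inr h * (SemidirectProduct.inl g.left *
            SemidirectProduct.inr g.right) := mul_assoc _ _ _
        _ = SemidirectProduct.inr h * g := by rw [hgdec]
        _ = g * SemidirectProduct.inr h' := h4
        _ = (SemidirectProduct.inl g.left * SemidirectProduct.inr g.right) *
            SemidirectProduct.inr h' := by rw [hgdec]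
        _ = SemidirectProduct.inl g.left * (SemidirectProduct.inr g.right *
            SemidirectProduct.inr h') := mul_assoc _ _ _
        _ = _ := by rw [h5, mul_assoc]
    have h7 := mul_right_cancel h6
    have h8 : (SemidirectProduct.inl (φ h g.left) : V ⋊[φ] H) = SemidirectProduct.inl g.left := by
      rw [SemidirectProduct.inl_aut, h7, map_inv]
      group
    have h9 : φ h g.left = g.left := SemidirectProduct.inl_injective h8
    by_contra hne1
    have hh1 : h ≠ 1 := by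
      rintro rfl
      exact hne1 (map_one _)
    exact hv1 (hfpf h hh1 _ h9)

/-- The "moreover" part. -/
theorem frob_of_T [hT : T.Normal] (hHN : H ≤ N) (hTI : ∀ g, g ∉ N → ∀ x ∈ H, g * x * g⁻¹ ∈ H → x = 1)
    (hHall : (Nat.card H).Coprime (H.subgroupOf N).index) (hnorm : ∀ n ∈ N, ∀ h ∈ H, n * h * n⁻¹ ∈ H)
    (hNtop : N ≠ ⊤) (hHbot : H ≠ ⊥) (hc : T.IsComplement' H)
    (hstr : ∀ g, g ∉ N → ∀ s ∈ N, s ∉ T → g * s * g⁻¹ ∉ N)
    (hU : ∀ x, x ∉ T → ∃ g, g⁻¹ * x * g ∈ N) :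
    ∃ (F : Type u) (_ : Group F) (_ : Finite F) (C : Subgroup F),
      Cfsg.IsFrobeniusComplement C ∧ Nonempty (H ≃* C) := by
  have hHT : ∀ x ∈ H, x ≠ 1 → x ∉ T := fun x hx h1 hxT =>
    h1 (Subgroup.disjoint_def.mp hc.disjoint hxT hx)
  have hci := coprime_index hHT hstr hU
  have hco := coprime_card_T hHN hHall hc hci
  have hTN : ¬ T ≤ N := by
    intro hle
    apply hNtop
    rw [eq_top_iff]
    intro x _
    obtain ⟨⟨t, h⟩, hth⟩ := hc.2 x
    simp only at hth
    rw [← hth]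
    exact N.mul_mem (hle t.2) (hHN h.2)
  obtain ⟨r, hr, hrd⟩ := exists_prime_sylow_not_le hTN
  haveI := Fact.mk hr
  obtain ⟨R, hRT, hRp, hRc, hRinv⟩ := exists_invariant_p hHN hc hHT hnorm hstr hU hco hHbot r
    (default : Sylow r T)
  have hRN : ¬ R ≤ N := by
    intro hle
    apply hrd
    rw [← Sylow.card_eq_multiplicity (default : Sylow r T), ← hRc]
    exact Subgroup.card_dvd_of_le (le_inf hRT hle)
  -- a minimal invariant subgroup of `R` outside `N`
  obtain ⟨B, hB⟩ := exists_minimal_of_wellFoundedLT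
    (fun B : Subgroup G => B ≤ R ∧ (∀ h ∈ H, ∀ x ∈ B, h * x * h⁻¹ ∈ B) ∧ ¬ B ≤ N)
    ⟨R, le_rfl, hRinv, hRN⟩
  obtain ⟨⟨hBR, hBinv, hBN⟩, hBmin⟩ := hB
  have hBp : IsPGroup r B := hRp.to_le hBR
  haveI : Group.IsNilpotent B := hBp.isNilpotent
  let B₀ : Subgroup B := N.subgroupOf B
  have hB₀top : B₀ ≠ ⊤ := by
    intro h
    apply hBN
    intro x hx
    have : (⟨x, hx⟩ : B) ∈ B₀ := by
      rw [h]
      exact mem_top _
    exact mem_subgroupOf.mp this
  have hlt := Group.normalizerCondition_of_isNilpotent (G := B) B₀ (lt_top_iff_ne_top.mpr hB₀top)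
  have hB₀n : B₀.Normal := by
    let M : Subgroup G := (normalizer (B₀ : Set B)).map B.subtype
    have hMB : M ≤ B := by
      rintro _ ⟨x, _, rfl⟩
      exact x.2
    have hMinv : ∀ h ∈ H, ∀ x ∈ M, h * x * h⁻¹ ∈ M := by
      rintro h hh _ ⟨m, hm, rfl⟩
      have hmem : h * (m : G) * h⁻¹ ∈ B := hBinv h hh _ m.2
      refine ⟨⟨_, hmem⟩, ?_, rfl⟩
      rw [SetLike.mem_coe, mem_normalizer_iff]
      intro x
      have hxm : h⁻¹ * (x : G) * h ∈ B := by
        have := hBinv h⁻¹ (H.inv_mem hh) _ x.2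
        simpa using this
      have e1 := mem_normalizer_iff.mp hm ⟨_, hxm⟩
      simp only [B₀, mem_subgroupOf] at e1 ⊢
      have hhN : h ∈ N := hHN hh
      have e2 : (x : G) ∈ N ↔ h⁻¹ * (x : G) * h ∈ N := by
        constructor
        · intro hx
          exact N.mul_mem (N.mul_mem (N.inv_mem hhN) hx) hhN
        · intro hx
          have := N.mul_mem (N.mul_mem hhN hx) (N.inv_mem hhN)
          simpa [mul_assoc] using this
      have e3 : (h * (m : G) * h⁻¹ * (x : G) * (h * (m : G) * h⁻¹)⁻¹ ∈ N) ↔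
          (m : G) * (h⁻¹ * (x : G) * h) * (m : G)⁻¹ ∈ N := by
        constructor
        · intro hx
          have := N.mul_mem (N.mul_mem (N.inv_mem hhN) hx) hhN
          convert this using 1
          group
        · intro hx
          have := N.mul_mem (N.mul_mem hhN hx) (N.inv_mem hhN)
          convert this using 1
          group
      simp only [Subgroup.coe_mul, Subgroup.coe_inv] at e1 ⊢
      rw [e3, e2]
      exact e1
    by_cases hMN : M ≤ N
    · exfalso
      have h1 : normalizer (B₀ : Set B) ≤ B₀ := by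
        intro x hx
        exact mem_subgroupOf.mpr (hMN ⟨x, hx, rfl⟩)
      exact absurd h1 (not_le_of_gt hlt)
    · have h1 : B ≤ M := hBmin ⟨hMB.trans hBR, hMinv, hMN⟩ hMB
      have h2 : normalizer (B₀ : Set B) = ⊤ := by
        rw [eq_top_iff]
        intro x _
        obtain ⟨y, hy, hyx⟩ := h1 x.2
        have : y = x := Subtype.ext hyx
        rw [← this]
        exact hy
      exact normalizer_eq_top_iff.mp h2
  refine frob_of_section B B₀ hB₀top hBinv ?_ hHbot ?_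
  · intro h hh x hx hm
    exact mem_subgroupOf.mpr (N.mul_mem (N.mul_mem (hHN hh) (mem_subgroupOf.mp hx))
      (N.inv_mem (hHN hh)))
  · intro h hh h1 b hm hb
    -- `h` commutes with the element `c = b'⁻¹ b` of `T ∩ N` and with `b`
    have hcN : (h * (b : G) * h⁻¹)⁻¹ * b ∈ N := mem_subgroupOf.mp hb
    have hbT : (b : G) ∈ T := hRT (hBR b.2)
    have hcT : (h * (b : G) * h⁻¹)⁻¹ * b ∈ T :=
      T.mul_mem (T.inv_mem (hT.conj_mem _ hbT h)) hbT
    set c : G := (h * (b : G) * h⁻¹)⁻¹ * b with hcdef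
    have hb' : h * (b : G) * h⁻¹ = b * c⁻¹ := by
      rw [hcdef]; group
    have hcomm : h * c⁻¹ = c⁻¹ * h :=
      (commute_of_mem hHT hnorm (T.inv_mem hcT) (N.inv_mem hcN) hh).symm
    have hpow : ∀ i : ℕ, h ^ i * (b : G) * (h ^ i)⁻¹ = b * (c⁻¹) ^ i := by
      intro i
      induction i with
      | zero => simp
      | succ i ih =>
        have hci : Commute (h ^ i) (c⁻¹) := by
          apply Commute.pow_left
          exact hcomm
        calc h ^ (i + 1) * (b : G) * (h ^ (i + 1))⁻¹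
            = h ^ i * (h * (b : G) * h⁻¹) * (h ^ i)⁻¹ := by
              rw [pow_succ]; group
          _ = h ^ i * (b : G) * (h ^ i)⁻¹ * (h ^ i * c⁻¹ * (h ^ i)⁻¹) := by
              rw [hb']; group
          _ = b * (c⁻¹) ^ i * c⁻¹ := by
              rw [ih, hci.eq]; group
          _ = b * (c⁻¹) ^ (i + 1) := by
              rw [pow_succ]; group
    have hc1 : (c⁻¹) ^ orderOf h = 1 := by
      have := hpow (orderOf h)
      rw [pow_orderOf_eq_one] at this
      simpa using this.symm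
    have hc2 : (c⁻¹) ^ Nat.card T = 1 := by
      have : (⟨c⁻¹, T.inv_mem hcT⟩ : T) ^ Nat.card T = 1 := pow_card_eq_one'
      exact congrArg Subtype.val this
    have hoh : orderOf h ∣ Nat.card H := by
      have := orderOf_dvd_natCard (⟨h, hh⟩ : H)
      rwa [Subgroup.orderOf_mk] at this
    have hc3 : c⁻¹ = 1 := by
      have h3 := Nat.Coprime.eq_one_of_dvd
        (Nat.Coprime.coprime_dvd_left (orderOf_dvd_of_pow_eq_one hc2)
          (Nat.Coprime.coprime_dvd_right hoh hco))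
        (orderOf_dvd_of_pow_eq_one hc1)
      exact orderOf_eq_one_iff.mp h3
    have hbh : h * (b : G) * h⁻¹ = b := by
      rw [hb', hc3, mul_one]
    -- so `b` lies in `N`
    refine mem_subgroupOf.mpr ?_
    by_contra hbN
    apply h1
    exact hTI b hbN h hh (by
      have h4 : (b : G) * h * (b : G)⁻¹ = h := by
        have h5 : h * (b : G) = b * h := by
          calc h * (b : G) = h * (b : G) * h⁻¹ * h := by group
            _ = b * h := by rw [hbh]
        calc (b : G) * h * (b : G)⁻¹ = h * b * (b : G)⁻¹ := by rw [h5]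
          _ = h := by group
      rw [h4]
      exact hh)

end TI

end Cfsg.Agent.Lib.FrobWie
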